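import Groth.Agent.Gaga.H475.Limits
import Groth.Agent.Gaga.H475.Conn
import Groth.Agent.Gaga.H563.SepRat

/-!
# A holomorphic map from a proper integral scheme is rational

`exists_ratio`: `X` integral and proper over `ℂ`, `φ : X(ℂ) → Y(ℂ)` holomorphic, `U ⊆ X` affine open
and `y` a section of `O_Y` over `V`, where `V(ℂ)` meets `φ(U(ℂ))`.  Then `y ∘ φ = f / g` on a
non-empty open subset of `U(ℂ)`, with `f, g ∈ Γ(X, U)` and `g ≠ 0`.
-/

set_option autoImplicit false

namespace Groth.Agent.Gaga.H475.Asm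

open Filter Topology CategoryTheory AlgebraicGeometry TopologicalSpace Opposite
open Groth.Agent.An.H863.PtsBasic Groth.Agent.An.H863.PtsCont Groth.Agent.An.H867.Nhds
open Groth.Agent.An.H869.LocalRoots Groth.Agent.An.H869
open Groth.Agent.Gaga.H475.Chart Groth.Agent.Gaga.H475.Line Groth.Agent.Gaga.H475.Conn

/-- Lagrange interpolation at the roots. -/
lemma interp {n : ℕ} {P u v : Polynomial (MvPolynomial (Fin n) ℂ)} {D : MvPolynomial (Fin n) ℂ}
    (hP : P.Monic) (hbez : u * P + v * Polynomial.derivative P = Polynomial.C D)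
    (s : ℂ → ℂ) (z : Fin n → ℂ) (t0 : ℂ) (ht0 : F P (z, t0) = 0) :
    ∑ k ∈ Finset.range (P.natDegree + 1),
      (∑ t ∈ (P.map (MvPolynomial.eval z)).roots.toFinset, s t * F (v * Interp.gk P k) (z, t)) *
        t0 ^ k = s t0 * MvPolynomial.eval z D := by
  have hmem : ∀ t, t ∈ (P.map (MvPolynomial.eval z)).roots.toFinset ↔ F P (z, t) = 0 := by
    intro t
    rw [Multiset.mem_toFinset, Polynomial.mem_roots (hP.map _).ne_zero]
    rfl
  have h1 : ∑ k ∈ Finset.range (P.natDegree + 1),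
      (∑ t ∈ (P.map (MvPolynomial.eval z)).roots.toFinset, s t * F (v * Interp.gk P k) (z, t)) *
        t0 ^ k = ∑ t ∈ (P.map (MvPolynomial.eval z)).roots.toFinset, s t * F v (z, t) *
        Polynomial.eval t0 ((P.map (MvPolynomial.eval z)) /ₘ
          (Polynomial.X - Polynomial.C t)) := by
    have h3 : ∀ t, Polynomial.eval t0 ((P.map (MvPolynomial.eval z)) /ₘ
        (Polynomial.X - Polynomial.C t)) =
        ∑ k ∈ Finset.range (P.natDegree + 1), F (Interp.gk P k) (z, t) * t0 ^ k := by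
      intro t
      rw [Polynomial.eval_eq_sum_range' (n := P.natDegree + 1)]
      · refine Finset.sum_congr rfl (fun k _ => ?_)
        rw [Interp.F_gk P hP]
      · rw [Polynomial.natDegree_divByMonic _ (Polynomial.monic_X_sub_C t),
          Polynomial.natDegree_X_sub_C, hP.natDegree_map]
        omega
    simp only [h3, Finset.mul_sum]
    rw [Finset.sum_comm]
    refine Finset.sum_congr rfl (fun k _ => ?_)
    rw [Finset.sum_mul]
    refine Finset.sum_congr rfl (fun t _ => ?_)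
    rw [Interp.F_mul]
    ring
  rw [h1, Finset.sum_eq_single t0]
  · have hroot : (P.map (MvPolynomial.eval z)).IsRoot t0 := ht0
    have h4 := Polynomial.mul_divByMonic_eq_iff_isRoot.2 hroot
    have h5 := congrArg (fun p => Polynomial.eval t0 (Polynomial.derivative p)) h4
    simp only [Polynomial.derivative_mul, Polynomial.derivative_sub, Polynomial.derivative_X,
      Polynomial.derivative_C, sub_zero, one_mul, Polynomial.eval_add, Polynomial.eval_mul,
      Polynomial.eval_sub, Polynomial.eval_X, Polynomial.eval_C, sub_self, zero_mul, add_zero] at h5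
    rw [h5]
    have h6 := congrArg (fun p => F p (z, t0)) hbez
    simp only [F, Polynomial.map_add, Polynomial.map_mul, Polynomial.eval_add, Polynomial.eval_mul,
      Polynomial.map_C, Polynomial.eval_C, ← Polynomial.derivative_map] at h6
    have h7 : Polynomial.eval t0 (P.map (MvPolynomial.eval z)) = 0 := ht0
    rw [h7, mul_zero, zero_add] at h6
    rw [mul_assoc]
    simp only [F]
    rw [h6]
  · intro t ht hne
    have hroot : (P.map (MvPolynomial.eval z)).IsRoot t := (hmem t).1 ht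
    have h4 := Polynomial.mul_divByMonic_eq_iff_isRoot.2 hroot
    have h5 := congrArg (Polynomial.eval t0) h4
    have h7 : Polynomial.eval t0 (P.map (MvPolynomial.eval z)) = 0 := ht0
    rw [Polynomial.eval_mul, h7] at h5
    rcases mul_eq_zero.1 h5 with h8 | h8
    · simp only [Polynomial.eval_sub, Polynomial.eval_X, Polynomial.eval_C] at h8
      exact absurd (sub_eq_zero.1 h8).symm hne
    · rw [h8, mul_zero]
  · intro h
    exact absurd ((hmem t0).2 ht0) h

variable {X : Scheme.{0}} [X.Over An.SC] {U : X.Opens} {n : ℕ} (K : Chart X U n)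
variable {Y : Scheme.{0}} [Y.Over An.SC]

/-- The trace functions. -/
noncomputable def tr (φ : C(An.Pts X, An.Pts Y)) (V : Y.Opens) (y : Γ(Y, V))
    (G : Polynomial (MvPolynomial (Fin n) ℂ)) (z : Fin n → ℂ) : ℂ :=
  ∑ t ∈ R K z, evAt (φ (K.Θ (z, t))) V y * F G (z, t)

/-- The traces are rational on a smaller open set. -/
lemma exists_rational_trace [IsProper (X ↘ An.SC)] (φ : C(An.Pts X, An.Pts Y))
    (hφ : An.IsHolMap φ) (V : Y.Opens) (y : Γ(Y, V)) (G : Polynomial (MvPolynomial (Fin n) ℂ))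
    (O : Set (Fin n → ℂ)) (hO : IsOpen O) (hOne : O.Nonempty) (hOg : O ⊆ Good K φ V) :
    ∃ P Q : MvPolynomial (Fin n) ℂ, Q ≠ 0 ∧ ∃ O' ⊆ O, IsOpen O' ∧ O'.Nonempty ∧
      ∀ z ∈ O', MvPolynomial.eval z Q * tr K φ V y G z = MvPolynomial.eval z P := by
  refine Groth.Agent.Gaga.H563.SepRat.exists_rational_open n (tr K φ V y G) O hO hOne
    (fun z hz => (continuousAt_trace K φ hφ V y G (hOg hz)).continuousWithinAt) ?_
  intro c hc i
  have hLc : L c i (c i) = c := Function.update_eq_self i c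
  have h1 : c i ∈ W0 K c i := by
    change MvPolynomial.eval (L c i (c i)) K.D ≠ 0
    rw [hLc]
    exact (hOg hc).1
  obtain ⟨p, q, hq, hpq⟩ := Limits.exists_rational_line K φ hφ V y c i h1 (by
    intro t ht
    change t ∈ R K (L c i (c i)) at ht
    rw [hLc] at ht ⊢
    exact (hOg hc).2 t ht) G
  refine ⟨p, q, hq, fun w hw => ?_⟩
  exact hpq w (hOg hw).1 fun t ht => (hOg hw).2 t ht

/-- Finitely many traces are rational on a common open set. -/
lemma exists_rational_traces [IsProper (X ↘ An.SC)] (φ : C(An.Pts X, An.Pts Y))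
    (hφ : An.IsHolMap φ) (V : Y.Opens) (y : Γ(Y, V)) (G : ℕ → Polynomial (MvPolynomial (Fin n) ℂ))
    (O : Set (Fin n → ℂ)) (hO : IsOpen O) (hOne : O.Nonempty) (hOg : O ⊆ Good K φ V) (N : ℕ) :
    ∃ (P : ℕ → MvPolynomial (Fin n) ℂ) (Q : MvPolynomial (Fin n) ℂ), Q ≠ 0 ∧ ∃ O' ⊆ O,
      IsOpen O' ∧ O'.Nonempty ∧ ∀ k < N, ∀ z ∈ O',
        MvPolynomial.eval z Q * tr K φ V y (G k) z = MvPolynomial.eval z (P k) := by
  induction N with
  | zero => exact ⟨0, 1, one_ne_zero, O, subset_rfl, hO, hOne, fun k hk => absurd hk (by omega)⟩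
  | succ N ih =>
    obtain ⟨P, Q, hQ, O', hO'O, hO', hO'ne, h1⟩ := ih
    obtain ⟨P2, Q2, hQ2, O2, hO2, hO2o, hO2ne, h2⟩ :=
      exists_rational_trace K φ hφ V y (G N) O' hO' hO'ne (hO'O.trans hOg)
    refine ⟨fun k => if k = N then P2 * Q else P k * Q2, Q * Q2, mul_ne_zero hQ hQ2, O2,
      hO2.trans hO'O, hO2o, hO2ne, fun k hk z hz => ?_⟩
    by_cases hkN : k = N
    · subst hkN
      simp only [if_true, map_mul]
      rw [← h2 z hz]
      ring
    · simp only [if_neg hkN, map_mul]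
      rw [← h1 k (by omega) z (hO2 hz)]
      ring

/-- **A holomorphic map from a proper integral scheme is rational.** -/
theorem exists_ratio (X : Scheme.{0}) [X.Over An.SC] [IsIntegral X] [IsProper (X ↘ An.SC)]
    (Y : Scheme.{0}) [Y.Over An.SC] (φ : C(An.Pts X, An.Pts Y)) (hφ : An.IsHolMap φ)
    (U : X.Opens) (hU : IsAffineOpen U) (V : Y.Opens) (y : Γ(Y, V)) (x0 : An.Pts X)
    (hx0 : x0.pt ∈ U) (hV : (φ x0).pt ∈ V) :
    ∃ f g : Γ(X, U), g ≠ 0 ∧ ∃ O : Set (An.Pts X), IsOpen O ∧ O.Nonempty ∧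
      ∀ x ∈ O, x.pt ∈ U ∧ (φ x).pt ∈ V ∧ evAt x U g * evAt (φ x) V y = evAt x U f := by
  have hne : Nonempty U := ⟨⟨_, hx0⟩⟩
  obtain ⟨n, ⟨K⟩⟩ := exists_chart X U hU
  obtain ⟨q1, hq1, hq1V⟩ := exists_A K φ V hx0 hV
  obtain ⟨z0, hz0⟩ := exists_all K φ V (forall_A K φ hφ V hq1 (A_of_mem K hq1 hq1V))
  obtain ⟨P, Q, hQ, O', hO'g, hO', hO'ne, h1⟩ := exists_rational_traces K φ hφ V y
    (fun k => K.v * Interp.gk K.P k) (Good K φ V) (isOpen_good K φ V) ⟨z0, hz0⟩ subset_rfl
    (K.P.natDegree + 1)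
  let G' : Polynomial (MvPolynomial (Fin n) ℂ) :=
    ∑ k ∈ Finset.range (K.P.natDegree + 1), Polynomial.C (P k) * Polynomial.X ^ k
  have hG' : ∀ z t, F G' (z, t) =
      ∑ k ∈ Finset.range (K.P.natDegree + 1), MvPolynomial.eval z (P k) * t ^ k := by
    intro z t
    simp only [F, G', Polynomial.map_sum, Polynomial.eval_finsetSum]
    refine Finset.sum_congr rfl (fun k _ => ?_)
    simp
  have hkey : ∀ z ∈ O', ∀ t ∈ R K z, MvPolynomial.eval z (Q * K.D) *
      evAt (φ (K.Θ (z, t))) V y = F G' (z, t) := by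
    intro z hz t ht
    have h2 := interp K.monic K.bez (fun t => evAt (φ (K.Θ (z, t))) V y) z t ((mem_R K z t).1 ht)
    rw [hG', map_mul, mul_assoc, mul_comm (MvPolynomial.eval z K.D), ← h2, Finset.mul_sum]
    refine Finset.sum_congr rfl (fun k hk => ?_)
    rw [← h1 k (Finset.mem_range.1 hk) z hz, mul_assoc]
    rfl
  refine ⟨G'.eval₂ K.g K.t, K.g (Q * K.D), ?_, ?_⟩
  · intro h
    exact mul_ne_zero hQ K.D_ne (K.inj (by rw [h, map_zero]))
  let c : An.Pts X → (Fin n → ℂ) := fun x j => evAt x U (K.g (MvPolynomial.X j))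
  have hc : ContinuousOn c (An.Pts.pt ⁻¹' (U : Set X)) :=
    continuousOn_pi.2 fun j => continuousOn_evAt U _
  have hcM : ∀ q ∈ K.M, c (K.Θ q) = q.1 := by
    intro q hq
    funext j
    change evAt (K.Θ q) U (K.g (MvPolynomial.X j)) = q.1 j
    rw [K.ev_g hq, MvPolynomial.eval_X]
  refine ⟨An.Pts.pt ⁻¹' (U : Set X) ∩ c ⁻¹' O' ∩
    {x | x.pt ∈ X.basicOpen (K.g K.D)}, ?_, ?_, ?_⟩
  · exact (hc.isOpen_inter_preimage (An.Pts.isOpen_preimage_pt U) hO').inter
      (An.Pts.isOpen_preimage_pt (X.basicOpen (K.g K.D)))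
  · obtain ⟨z, hz⟩ := hO'ne
    have hdeg : (K.P.map (MvPolynomial.eval z)).degree ≠ 0 := by
      intro h
      have h2 : K.P.natDegree = 0 := by
        rw [← K.monic.natDegree_map (MvPolynomial.eval z)]
        exact Polynomial.natDegree_eq_of_degree_eq_some h
      exact K.prime.not_isUnit (by
        rw [Polynomial.eq_one_of_monic_natDegree_zero K.monic h2]
        exact isUnit_one)
    obtain ⟨t, ht⟩ := IsAlgClosed.exists_root _ hdeg
    have hM : (z, t) ∈ K.M := ⟨ht, (hO'g hz).1⟩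
    have hpt := K.memU _ hM.1 hM.2
    refine ⟨K.Θ (z, t), ⟨hpt, ?_⟩, ?_⟩
    · rw [Set.mem_preimage, hcM _ hM]
      exact hz
    · refine (Family.evAt_ne_zero_iff hpt _).1 ?_
      rw [K.ev_g hM]
      exact hM.2
  · rintro x ⟨⟨hxU, hxO⟩, hxD⟩
    obtain ⟨q, hq, rfl⟩ := K.exists_eq x hxU ((Family.evAt_ne_zero_iff hxU _).2 hxD)
    rw [Set.mem_preimage, hcM _ hq] at hxO
    have hqR : q.2 ∈ R K q.1 := (mem_R K _ _).2 hq.1
    refine ⟨hxU, (hO'g hxO).2 _ hqR, ?_⟩
    rw [K.ev_g hq, hkey q.1 hxO q.2 hqR, K.ev q hq.1 hq.2, eq_div_iff hq.2]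
    have h3 : F (K.h (G'.eval₂ K.g K.t)) q = F (Polynomial.C K.D * G') q := by
      refine K.F_congr hq.1 ?_
      rw [← K.hh, Polynomial.eval₂_mul, Polynomial.eval₂_C]
    rw [h3, Interp.F_mul, Interp.F_C, mul_comm]

end Groth.Agent.Gaga.H475.Asm
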