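import Groth.Agent.Gaga.H475.Boundary
import Groth.Agent.Gaga.H475.Punct
import Groth.Agent.Gaga.H475.Rational
import Groth.Agent.An.H866.AlgDense
import Groth.Agent.S4205
import Mathlib.Analysis.Normed.Module.Connected

/-!
# Limit points of the étale locus along a coordinate line; rationality of traces along lines
-/

set_option autoImplicit false

namespace Groth.Agent.Gaga.H475.Limits

open Filter Topology CategoryTheory AlgebraicGeometry TopologicalSpace Opposite Bornology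
open Groth.Agent.An.H863.PtsBasic Groth.Agent.An.H863.PtsCont Groth.Agent.An.H867.Nhds
open Groth.Agent.An.H867
open Groth.Agent.An.H869.LocalRoots Groth.Agent.An.H869
open Groth.Agent.Gaga.H475.Chart Groth.Agent.Gaga.H475.Line Groth.Agent.Gaga.H475.Boundary
open Groth.Agent.Gaga.H475.Sheets Groth.Agent.Gaga.H475.Lower Groth.Agent.Gaga.H475.Family

variable {X : Scheme.{0}} [X.Over An.SC] {U : X.Opens} {n : ℕ} (K : Chart X U n)

/-- The complex points of the boundary. -/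
def limE (z : Fin n → ℂ) (i : Fin n) : Set (An.Pts X) := {x | x.pt ∈ E K z i}

lemma finite_limE [LocallyOfFiniteType (X ↘ An.SC)] [QuasiCompact (X ↘ An.SC)] (z : Fin n → ℂ)
    (i : Fin n) : (limE K z i).Finite :=
  (finite_E K z i).preimage pt_injective.injOn

/-- The fibre over a point. -/
def fib (w : Fin n → ℂ) : Set (An.Pts X) :=
  {x | x.pt ∈ U ∧ ∀ j, evAt x U (K.g (MvPolynomial.X j)) = w j}

lemma finite_fib (w : Fin n → ℂ) : (fib K w).Finite := by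
  let _ : Algebra ℂ Γ(X, U) := (strU U).toAlgebra
  let g : MvPolynomial (Fin n) ℂ →ₐ[ℂ] Γ(X, U) := { K.g with commutes' := fun c => K.const c }
  have hfin := Groth.Agent.An.H866.AlgDense.finite_fibre g K.fin (MvPolynomial.aeval w)
  have hF : Finite {y : Γ(X, U) →ₐ[ℂ] ℂ // ∀ r, y (g r) = MvPolynomial.aeval w r} := hfin
  let f : {x : An.Pts X // x ∈ fib K w} →
      {y : Γ(X, U) →ₐ[ℂ] ℂ // ∀ r, y (g r) = MvPolynomial.aeval w r} := fun x =>
    ⟨{ evHom x.1 U x.2.1 with commutes' := fun c => ev_strU x.1 U x.2.1 c }, fun r => by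
      have h1 : (evHom x.1 U x.2.1).comp K.g =
          (MvPolynomial.aeval (R := ℂ) w : MvPolynomial (Fin n) ℂ →ₐ[ℂ] ℂ).toRingHom := by
        refine MvPolynomial.ringHom_ext (fun c => ?_) (fun j => ?_)
        · rw [RingHom.comp_apply, K.const, evHom_apply, ev_strU]
          simp
        · rw [RingHom.comp_apply, evHom_apply, ← evAt_of_mem x.2.1, x.2.2 j]
          simp
      exact congrArg (fun f => f r) h1⟩
  have hf : Function.Injective f := by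
    intro x x' hxx
    have h1 : evHom x.1 U x.2.1 = evHom x'.1 U x'.2.1 := by
      ext a
      exact congrArg (fun y => y.1 a) hxx
    apply Subtype.ext
    apply pt_injective
    rw [← fromSpec_kerPt x.1 U K.aff x.2.1, ← fromSpec_kerPt x'.1 U K.aff x'.2.1, h1]
  exact Finite.of_injective f hf

lemma pt_mem_T {z : Fin n → ℂ} {i : Fin n} {ζ t : ℂ} (hζ : ζ ∈ W0 K z i) (ht : t ∈ r K z i ζ) :
    (K.Θ (L z i ζ, t)).pt ∈ T K z i := by
  have hM := mem_M K hζ ht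
  have hU := K.memU _ hM.1 hM.2
  refine ⟨Alg.kerPt (evHom (K.Θ (L z i ζ, t)) U hU), ?_, fromSpec_kerPt _ U K.aff hU⟩
  intro j hj
  change evHom (K.Θ (L z i ζ, t)) U hU _ = 0
  rw [evHom_apply, ← evAt_of_mem hU, K.ev_g hM]
  simp [L, hj]

/-- Limit points. -/
lemma eventually_mem_of_lim [CompactSpace (An.Pts X)] {z : Fin n → ℂ} {i : Fin n} {F : Filter ℂ}
    (hF : ∀ᶠ ζ in F, ζ ∈ W0 K z i) {N : Set (An.Pts X)} (hN : IsOpen N)
    (hE : limE K z i ⊆ N)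
    (hU : ∀ x : An.Pts X, x.pt ∈ U → (∀ ε : ℝ, 0 < ε → ∃ᶠ ζ in F, ∀ j,
      ‖evAt x U (K.g (MvPolynomial.X j)) - L z i ζ j‖ < ε) → x ∈ N) :
    ∀ᶠ ζ in F, ∀ t ∈ r K z i ζ, K.Θ (L z i ζ, t) ∈ N := by
  by_contra hcon
  rw [Filter.not_eventually] at hcon
  have hex : ∀ ζ, ∃ x : An.Pts X, (¬ ∀ t ∈ r K z i ζ, K.Θ (L z i ζ, t) ∈ N) →
      x ∉ N ∧ ∃ t ∈ r K z i ζ, K.Θ (L z i ζ, t) = x := by
    intro ζ
    by_cases h : ∀ t ∈ r K z i ζ, K.Θ (L z i ζ, t) ∈ N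
    · exact ⟨K.Θ (L z i ζ, 0), fun h' => absurd h h'⟩
    · push Not at h
      obtain ⟨t, ht, htN⟩ := h
      exact ⟨_, fun _ => ⟨htN, t, ht, rfl⟩⟩
  choose p hp using hex
  let S : Set ℂ := {ζ | ζ ∈ W0 K z i ∧ ¬ ∀ t ∈ r K z i ζ, K.Θ (L z i ζ, t) ∈ N}
  have hS : ∃ᶠ ζ in F, ζ ∈ S := (hcon.and_eventually hF).mono fun ζ h => ⟨h.2, h.1⟩
  have hne : (F ⊓ 𝓟 S).NeBot := Filter.frequently_mem_iff_neBot.1 hS
  obtain ⟨x, hx⟩ := exists_clusterPt_of_compactSpace (Filter.map p (F ⊓ 𝓟 S))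
  have hfreq : ∀ s ∈ 𝓝 x, ∃ᶠ ζ in F, ζ ∈ S ∧ p ζ ∈ s := by
    intro s hs
    have h1 := clusterPt_iff_frequently.1 hx s hs
    rw [Filter.frequently_map, Filter.frequently_inf_principal] at h1
    exact h1
  have hxN : x ∉ N := by
    intro h
    obtain ⟨ζ, h1, h2⟩ := (hfreq N (hN.mem_nhds h)).exists
    exact (hp ζ h1.2).1 h2
  have hxT : x.pt ∈ closure (T K z i) := by
    by_contra h
    have h1 : IsOpen (An.Pts.pt ⁻¹' (closure (T K z i))ᶜ : Set (An.Pts X)) :=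
      An.Pts.isOpen_preimage_pt (⟨(closure (T K z i))ᶜ, isClosed_closure.isOpen_compl⟩ : X.Opens)
    obtain ⟨ζ, h2, h3⟩ := (hfreq _ (h1.mem_nhds h)).exists
    obtain ⟨-, t, ht, he⟩ := hp ζ h2.2
    apply h3
    rw [← he]
    exact subset_closure (pt_mem_T K h2.1 ht)
  by_cases hxU : x.pt ∈ U
  · refine hxN (hU x hxU fun ε hε => ?_)
    have h1 : ∀ᶠ y : An.Pts X in 𝓝 x, ∀ j, ‖evAt x U (K.g (MvPolynomial.X j)) -
        evAt y U (K.g (MvPolynomial.X j))‖ < ε := by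
      rw [Filter.eventually_all]
      intro j
      have h2 := (continuousAt_evAt U (K.g (MvPolynomial.X j)) hxU).tendsto
      filter_upwards [Metric.tendsto_nhds.1 h2 ε hε] with y hy
      rwa [dist_comm, dist_eq_norm] at hy
    refine (hfreq _ h1).mono fun ζ h2 j => ?_
    obtain ⟨h3, h4⟩ := h2
    obtain ⟨-, t, ht, he⟩ := hp ζ h3.2
    have h5 := h4 j
    rw [← he, K.ev_g (mem_M K h3.1 ht)] at h5
    simpa using h5
  · exact hxN (hE ⟨hxT, hxU⟩)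

lemma eventually_mem_nhdsNE [CompactSpace (An.Pts X)] {z : Fin n → ℂ} {i : Fin n} {ζ0 : ℂ}
    (hF : ∀ᶠ ζ in 𝓝[≠] ζ0, ζ ∈ W0 K z i) {N : Set (An.Pts X)} (hN : IsOpen N)
    (hE : limE K z i ∪ fib K (L z i ζ0) ⊆ N) :
    ∀ᶠ ζ in 𝓝[≠] ζ0, ∀ t ∈ r K z i ζ, K.Θ (L z i ζ, t) ∈ N := by
  refine eventually_mem_of_lim K hF hN (Set.subset_union_left.trans hE) fun x hx h => ?_
  refine hE (Or.inr ⟨hx, fun j => ?_⟩)
  by_contra hne
  have hδ : 0 < ‖evAt x U (K.g (MvPolynomial.X j)) - L z i ζ0 j‖ := norm_pos_iff.2 (sub_ne_zero.2 hne)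
  have h1 : Tendsto (fun ζ => L z i ζ j) (𝓝 ζ0) (𝓝 (L z i ζ0 j)) :=
    ((continuous_apply j).comp (differentiable_L z i).continuous).tendsto ζ0
  have h2 := (Metric.tendsto_nhds.1 h1 _ (half_pos hδ)).filter_mono
    (nhdsWithin_le_nhds (s := {ζ0}ᶜ))
  obtain ⟨ζ, h3, h4⟩ := ((h _ (half_pos hδ)).and_eventually h2).exists
  rw [dist_eq_norm] at h4
  have h5 := norm_add_le (evAt x U (K.g (MvPolynomial.X j)) - L z i ζ j) (L z i ζ j - L z i ζ0 j)
  rw [sub_add_sub_cancel] at h5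
  linarith [h3 j]

lemma eventually_mem_cobounded [CompactSpace (An.Pts X)] {z : Fin n → ℂ} {i : Fin n}
    (hF : ∀ᶠ ζ in cobounded ℂ, ζ ∈ W0 K z i) {N : Set (An.Pts X)} (hN : IsOpen N)
    (hE : limE K z i ⊆ N) :
    ∀ᶠ ζ in cobounded ℂ, ∀ t ∈ r K z i ζ, K.Θ (L z i ζ, t) ∈ N := by
  refine eventually_mem_of_lim K hF hN hE fun x hx h => ?_
  exfalso
  have h2 : ∀ᶠ ζ : ℂ in cobounded ℂ, ‖evAt x U (K.g (MvPolynomial.X i))‖ + 1 < ‖ζ‖ :=
    tendsto_norm_cobounded_atTop.eventually_gt_atTop _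
  obtain ⟨ζ, h3, h4⟩ := ((h 1 one_pos).and_eventually h2).exists
  have h5 := h3 i
  rw [show L z i ζ i = ζ from Function.update_self _ _ _] at h5
  have h6 := norm_sub_norm_le ζ (evAt x U (K.g (MvPolynomial.X i)))
  rw [norm_sub_rev] at h6
  linarith

/-- The polynomial defining the complement of `W0`. -/
lemma exists_poly (z : Fin n → ℂ) (i : Fin n) (D : MvPolynomial (Fin n) ℂ) :
    ∃ q : Polynomial ℂ, ∀ ζ, q.eval ζ = MvPolynomial.eval (L z i ζ) D := by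
  refine ⟨MvPolynomial.aeval (fun j => if j = i then Polynomial.X else Polynomial.C (z j)) D,
    fun ζ => ?_⟩
  have h1 : (Polynomial.aeval ζ).comp
      (MvPolynomial.aeval (R := ℂ)
        (fun j => if j = i then Polynomial.X else Polynomial.C (z j)))
      = MvPolynomial.aeval (L z i ζ) := by
    ext j
    by_cases h : j = i
    · subst h
      simp [L]
    · simp [L, h]
  have h2 := DFunLike.congr_fun h1 D
  rw [AlgHom.comp_apply] at h2
  rw [← Polynomial.coe_aeval_eq_eval, ← MvPolynomial.coe_aeval_eq_eval]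
  exact h2

lemma finite_compl_W0 {z : Fin n → ℂ} {i : Fin n} {ζ1 : ℂ} (h1 : ζ1 ∈ W0 K z i) :
    (W0 K z i)ᶜ.Finite := by
  obtain ⟨q, hq⟩ := exists_poly z i K.D
  have hq0 : q ≠ 0 := by
    rintro rfl
    apply h1
    rw [← hq, Polynomial.eval_zero]
  refine q.roots.toFinset.finite_toSet.subset fun ζ hζ => ?_
  rw [Finset.mem_coe, Multiset.mem_toFinset, Polynomial.mem_roots hq0, Polynomial.IsRoot.def, hq]
  simpa [W0] using hζ

lemma isPreconnected_W0 {z : Fin n → ℂ} {i : Fin n} {ζ1 : ℂ} (h1 : ζ1 ∈ W0 K z i) :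
    IsPreconnected (W0 K z i) := by
  have h2 := (finite_compl_W0 K h1).countable.isConnected_compl_of_one_lt_rank
    (E := ℂ) (by rw [Complex.rank_real_complex]; exact Nat.one_lt_ofNat)
  rw [compl_compl] at h2
  exact h2.isPreconnected

lemma eventually_nhdsNE_W0 {z : Fin n → ℂ} {i : Fin n} {ζ1 : ℂ} (h1 : ζ1 ∈ W0 K z i) (ζ0 : ℂ) :
    ∀ᶠ ζ in 𝓝[≠] ζ0, ζ ∈ W0 K z i := by
  have h2 := (finite_compl_W0 K h1).compl_mem_cofinite
  rw [compl_compl] at h2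
  exact nhdsNE_le_cofinite ζ0 h2

lemma eventually_cobounded_W0 {z : Fin n → ℂ} {i : Fin n} {ζ1 : ℂ} (h1 : ζ1 ∈ W0 K z i) :
    ∀ᶠ ζ in cobounded ℂ, ζ ∈ W0 K z i := by
  have h2 := (isBounded_def.1 (finite_compl_W0 K h1).isBounded)
  rw [compl_compl] at h2
  exact h2

variable {Y : Scheme.{0}} [Y.Over An.SC]

lemma hΘ {z : Fin n → ℂ} {i : Fin n} : ∀ ζ ∈ W0 K z i, ∀ t ∈ r K z i ζ, ∀ N : Set (An.Pts X),
    IsOpen N → K.Θ (L z i ζ, t) ∈ N → ∀ᶠ q : ℂ × ℂ in 𝓝 (ζ, t), q.2 ∈ r K z i q.1 →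
      K.Θ (L z i q.1, q.2) ∈ N := by
  intro ζ hζ t ht N hN h
  have h1 := K.eventually_mem (mem_M K hζ ht) N hN h
  filter_upwards [(tendsto_line z i (ζ, t)).eventually h1, eventually_M K hζ] with q h2 h3 h4
  exact h2 (h3 h4)

/-- **Rationality of traces along coordinate lines.** -/
theorem exists_rational_line [IsProper (X ↘ An.SC)] (φ : C(An.Pts X, An.Pts Y))
    (hφ : An.IsHolMap φ) (V : Y.Opens) (y : Γ(Y, V)) (z : Fin n → ℂ) (i : Fin n) {ζ1 : ℂ}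
    (h1 : ζ1 ∈ W0 K z i) (hV1 : ∀ t ∈ r K z i ζ1, (φ (K.Θ (L z i ζ1, t))).pt ∈ V)
    (G : Polynomial (MvPolynomial (Fin n) ℂ)) :
    ∃ p q : Polynomial ℂ, q ≠ 0 ∧ ∀ ζ ∈ W0 K z i,
      (∀ t ∈ r K z i ζ, (φ (K.Θ (L z i ζ, t))).pt ∈ V) →
      q.eval ζ * ∑ t ∈ r K z i ζ, evAt (φ (K.Θ (L z i ζ, t))) V y * F G (L z i ζ, t) =
        p.eval ζ := by
  have hcomp := (Groth.Agent.S4205.result X).1 inferInstance
  have hc : CompactSpace (An.Pts X) := hcomp.1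
  have ht2 : T2Space (An.Pts X) := hcomp.2
  have H := holFam K φ hφ z i
  have hconn := isPreconnected_W0 K h1
  have hP1 : ∀ t0 : ℂ, PunctData (r K z i) (fun q => evAt (φ (K.Θ (L z i q.1, q.2))) V y)
      (𝓝[≠] t0) := by
    intro t0
    refine Punct.punctData_of_lim H hconn y h1 hV1 (𝓝[≠] t0) (eventually_nhdsNE_W0 K h1 t0)
      (fun q => K.Θ (L z i q.1, q.2)) φ (fun _ => rfl) φ.continuous
      (limE K z i ∪ fib K (L z i t0)) ((finite_limE K z i).union (finite_fib K _)) (hΘ K)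
      (fun N hN hE => eventually_mem_nhdsNE K (eventually_nhdsNE_W0 K h1 t0) hN hE)
  have hP2 : PunctData (r K z i) (fun q => evAt (φ (K.Θ (L z i q.1, q.2))) V y)
      (cobounded ℂ) := by
    refine Punct.punctData_of_lim H hconn y h1 hV1 (cobounded ℂ) (eventually_cobounded_W0 K h1)
      (fun q => K.Θ (L z i q.1, q.2)) φ (fun _ => rfl) φ.continuous
      (limE K z i) (finite_limE K z i) (hΘ K)
      (fun N hN hE => eventually_mem_cobounded K (eventually_cobounded_W0 K h1) hN hE)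
  have hg : ∀ ζ, ∀ t ∈ r K z i ζ, HolAt (r K z i) (fun q => F G (L z i q.1, q.2)) (ζ, t) := by
    intro ζ t _
    refine ⟨fun q => F G (L z i q.1, q.2), Filter.Eventually.of_forall fun q => ?_,
      Filter.Eventually.of_forall fun q _ => rfl⟩
    have h2 : DifferentiableAt ℂ (fun q : ℂ × ℂ => (L z i q.1, q.2)) q := by
      refine DifferentiableAt.prodMk ?_ differentiableAt_snd
      exact DifferentiableAt.comp (f := Prod.fst) (g := L z i) q (differentiable_L z i _)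
        differentiableAt_fst
    exact DifferentiableAt.comp (f := fun q : ℂ × ℂ => (L z i q.1, q.2)) q
      (analyticAt_F G _).differentiableAt h2
  obtain ⟨Kg, Ng, hKg, hgb⟩ := PolyGrowth.pg_eval_root
    (α := {q : (Fin n → ℂ) × ℂ // F K.P q = 0})
    (fun q => q.1.1) (fun q => q.1.2) K.P K.monic (fun q => q.2) G
  have hgb' : ∃ (K' : ℝ), ∀ ζ, ∀ t ∈ r K z i ζ,
      ‖F G (L z i ζ, t)‖ ≤ K' * (1 + ‖ζ‖) ^ Ng := by
    refine ⟨Kg * (1 + ‖z‖) ^ Ng, fun ζ t ht => ?_⟩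
    have h2 := hgb ⟨(L z i ζ, t), (mem_r K z i ζ t).1 ht⟩
    have h3 : ‖L z i ζ‖ ≤ ‖z‖ + ‖ζ‖ := by
      rw [pi_norm_le_iff_of_nonneg (by positivity)]
      intro j
      by_cases h : j = i
      · subst h
        rw [show L z j ζ j = ζ from Function.update_self _ _ _]
        linarith [norm_nonneg z]
      · rw [show L z i ζ j = z j from Function.update_of_ne h _ _]
        linarith [norm_le_pi_norm z j, norm_nonneg ζ]
    have h4 : 1 + ‖L z i ζ‖ ≤ (1 + ‖z‖) * (1 + ‖ζ‖) := by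
      nlinarith [norm_nonneg z, norm_nonneg ζ]
    calc ‖F G (L z i ζ, t)‖ ≤ Kg * (1 + ‖L z i ζ‖) ^ Ng := h2
      _ ≤ Kg * ((1 + ‖z‖) * (1 + ‖ζ‖)) ^ Ng := by gcongr
      _ = Kg * (1 + ‖z‖) ^ Ng * (1 + ‖ζ‖) ^ Ng := by rw [mul_pow]; ring
  obtain ⟨Kg', hgb'⟩ := hgb'
  obtain ⟨p, q, hq, hpq⟩ := Rational.exists_rational (card_r K z i) hP1 hP2 hg Kg' Ng hgb'
  refine ⟨p, q, hq, fun ζ hζ hV => ?_⟩
  exact hpq ζ (isCov K z i hζ) fun t ht => H.hol ζ hζ t ht V y (hV t ht)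

end Groth.Agent.Gaga.H475.Limits
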